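import Mathlib
import Cfsg.Agent.Lib.Helper20.M11Defs

set_option autoImplicit false
set_option linter.unusedSectionVars false

/-! M11DEG ladder (helper20, S4429): counting toolbox for the numeric rungs. -/

namespace Cfsg.Agent.Lib.Helper9.M11

open Finset Cfsg.Agent.Lib.Helper20.M11

section
variable {ι : Type*} [DecidableEq ι] (d : ι → ℕ)

/-- number of members of `S` of degree `n` -/
def cnt (S : Finset ι) (n : ℕ) : ℕ := (S.filter (fun i => d i = n)).card

theorem count_map_eq (S : Finset ι) (n : ℕ) : (S.val.map d).count n = cnt d S n := by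
  rw [Multiset.count_map, cnt, Finset.card_def, Finset.filter_val]
  congr 1
  apply Multiset.filter_congr
  intro i _
  exact eq_comm

theorem cnt_of_map_eq {S : Finset ι} {M : Multiset ℕ} (h : S.val.map d = M) (n : ℕ) :
    cnt d S n = M.count n := by
  rw [← h, count_map_eq]

theorem mem_of_map_eq {S : Finset ι} {M : Multiset ℕ} (h : S.val.map d = M) {i : ι}
    (hi : i ∈ S) : d i ∈ M := by
  rw [← h]; exact Multiset.mem_map_of_mem d hi

theorem cnt_eq_zero {S : Finset ι} {n : ℕ} (h : ∀ i ∈ S, d i ≠ n) : cnt d S n = 0 := by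
  rw [cnt, Finset.card_eq_zero, Finset.filter_eq_empty_iff]
  exact h

theorem cnt_pos {S : Finset ι} {n : ℕ} {i : ι} (hi : i ∈ S) (h : d i = n) : 1 ≤ cnt d S n := by
  rw [cnt, Nat.succ_le_iff, Finset.card_pos]
  exact ⟨i, Finset.mem_filter.mpr ⟨hi, h⟩⟩

theorem exists_of_cnt_pos {S : Finset ι} {n : ℕ} (h : 1 ≤ cnt d S n) : ∃ i ∈ S, d i = n := by
  rw [cnt, Nat.succ_le_iff, Finset.card_pos] at h
  obtain ⟨i, hi⟩ := h
  exact ⟨i, (Finset.mem_filter.mp hi).1, (Finset.mem_filter.mp hi).2⟩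

theorem cnt_union {X Y : Finset ι} (h : Disjoint X Y) (n : ℕ) :
    cnt d (X ∪ Y) n = cnt d X n + cnt d Y n := by
  rw [cnt, cnt, cnt, Finset.filter_union, Finset.card_union_of_disjoint]
  exact Finset.disjoint_filter_filter h

theorem cnt_mono {X Y : Finset ι} (h : X ⊆ Y) (n : ℕ) : cnt d X n ≤ cnt d Y n :=
  Finset.card_le_card (Finset.filter_subset_filter _ h)

theorem cnt_eq_of_forall {X Y : Finset ι} (hXY : X ⊆ Y) {n : ℕ} (h : ∀ i ∈ Y, d i = n → i ∈ X) :
    cnt d Y n = cnt d X n := by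
  rw [cnt, cnt]
  congr 1
  ext i
  simp only [Finset.mem_filter]
  constructor
  · rintro ⟨h1, h2⟩; exact ⟨h i h1 h2, h2⟩
  · rintro ⟨h1, h2⟩; exact ⟨hXY h1, h2⟩

theorem sum_eq (S : Finset ι) (t : Finset ℕ) (h : ∀ i ∈ S, d i ∈ t) (F : ℕ → ℤ) :
    ∑ i ∈ S, F (d i) = ∑ n ∈ t, (cnt d S n : ℤ) * F n := by
  rw [← Finset.sum_fiberwise_of_maps_to h]
  apply Finset.sum_congr rfl
  intro n _
  rw [Finset.sum_congr rfl (g := fun _ => F n)]
  · rw [Finset.sum_const, cnt, nsmul_eq_mul]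
  · intro i hi
    rw [(Finset.mem_filter.mp hi).2]

theorem card_eq (S : Finset ι) (t : Finset ℕ) (h : ∀ i ∈ S, d i ∈ t) :
    S.card = ∑ n ∈ t, cnt d S n :=
  Finset.card_eq_sum_card_fiberwise h

theorem map_eq_sum_replicate (S : Finset ι) (t : Finset ℕ) (h : ∀ i ∈ S, d i ∈ t) :
    S.val.map d = ∑ n ∈ t, Multiset.replicate (cnt d S n) n := by
  ext m
  rw [count_map_eq, Multiset.count_sum']
  simp only [Multiset.count_replicate]
  rw [Finset.sum_ite_eq' t m]
  split_ifs with hm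
  · rfl
  · exact cnt_eq_zero d (fun i hi h' => hm (h' ▸ h i hi))

theorem map_eq_replicate (Y : Finset ι) (y : ℕ) (h : ∀ i ∈ Y, d i = y) :
    Y.val.map d = Multiset.replicate Y.card y := by
  rw [Multiset.eq_replicate]
  refine ⟨by simp, ?_⟩
  intro b hb
  obtain ⟨i, hi, rfl⟩ := Multiset.mem_map.mp hb
  exact h i hi

theorem map_union {X Y : Finset ι} (h : Disjoint X Y) :
    (X ∪ Y).val.map d = X.val.map d + Y.val.map d := by
  rw [← Finset.disjUnion_eq_union X Y h, Finset.disjUnion_val, Multiset.map_add]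

end

section
variable {ι : Type*} [Fintype ι] [DecidableEq ι] {d : ι → ℕ} {i₀ : ι}

theorem Base.sum_sq_le (hb : Base d i₀) (S : Finset ι) : ∑ i ∈ S, d i ^ 2 ≤ 7920 := by
  rw [← hb.sq]
  exact Finset.sum_le_sum_of_subset (Finset.subset_univ S)

theorem Base.le (hb : Base d i₀) (i : ι) : d i ≤ 88 := by
  have h := Base.sum_sq_le hb {i}
  rw [Finset.sum_singleton] at h
  nlinarith

theorem Base.pos (hb : Base d i₀) (i : ι) : 0 < d i :=
  Nat.pos_of_dvd_of_pos (hb.dvd i) (by norm_num)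

theorem Base.cnt_one_le (hb : Base d i₀) (S : Finset ι) : cnt d S 1 ≤ 1 := by
  rw [cnt]
  calc (S.filter (fun i => d i = 1)).card ≤ ({i₀} : Finset ι).card := by
        apply Finset.card_le_card
        intro i hi
        rw [Finset.mem_singleton]
        exact hb.uniq i (Finset.mem_filter.mp hi).2
    _ = 1 := Finset.card_singleton _

end

end Cfsg.Agent.Lib.Helper9.M11
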