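import Cfsg.Agent.Lib.Helper71.GS.Defs
import Cfsg.Prelude.Def_CaseTheorems
import Cfsg.Agent.Lib.Helper71.Gag.Basic

set_option autoImplicit false

open Cfsg.Agent.Lib.Helper71.GS

namespace Cfsg.Agent.Lib.Helper9.GS

/-- Abstract additive form of BRIDGE. -/
theorem bridge_aux.{u, w} {G : Type w} [Group G] (p : ℕ) [Fact p.Prime]
    (V : Type u) [AddCommGroup V] [Module (ZMod p) V]
    (φ : G → (V ≃+ V)) (hφ1 : ∀ x, φ 1 x = x) (hφm : ∀ a b x, φ (a * b) x = φ a (φ b x))
    (P : Subgroup G) [P.Normal] (hker : ∀ g : G, g ∈ P ↔ ∀ x, φ g x = x)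
    (htr : ∀ x y : V, x ≠ 0 → y ≠ 0 → ∃ g : G, φ g x = y)
    (hfix : ∀ (g : G) (x : V), x ≠ 0 → φ g x = x → ∃ k : ℕ, g ^ p ^ k ∈ P) :
    ∃ (ρ : (G ⧸ P) →* (V ≃ₗ[ZMod p] V)), LA p ρ := by
  have hp : p.Prime := Fact.out
  let L : G → (V ≃ₗ[ZMod p] V) := fun g =>
    AddEquiv.toLinearEquiv (φ g) (fun c x => ZMod.map_smul (φ g).toAddMonoidHom c x)
  have hL : ∀ (g : G) (x : V), L g x = φ g x := fun g x => rfl
  let ψ : G →* (V ≃ₗ[ZMod p] V) :=
    { toFun := L
      map_one' := by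
        refine LinearEquiv.ext fun x => ?_
        rw [hL, hφ1]; rfl
      map_mul' := by
        intro a b
        refine LinearEquiv.ext fun x => ?_
        rw [LinearEquiv.mul_apply, hL, hL, hL, hφm] }
  have hψ : ∀ (g : G) (x : V), ψ g x = φ g x := fun g x => rfl
  have hψ1 : ∀ g : G, ψ g = 1 ↔ ∀ x, φ g x = x := by
    intro g
    constructor
    · intro h x
      exact congrArg (fun f : V ≃ₗ[ZMod p] V => f x) h
    · intro h
      refine LinearEquiv.ext fun x => ?_
      rw [hψ, h]; rfl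
  let ρ : (G ⧸ P) →* (V ≃ₗ[ZMod p] V) :=
    QuotientGroup.lift P ψ (fun g hg => (hψ1 g).2 ((hker g).1 hg))
  have hρ : ∀ g : G, ρ (QuotientGroup.mk g) = ψ g := fun g => rfl
  refine ⟨ρ, ?_, ?_, ?_⟩
  · rw [injective_iff_map_eq_one]
    intro q
    induction q using QuotientGroup.induction_on with
    | H g =>
      intro h
      rw [hρ, hψ1, ← hker] at h
      exact (QuotientGroup.eq_one_iff g).2 h
  · intro v w hv hw
    obtain ⟨g, hg⟩ := htr v w hv hw
    refine ⟨QuotientGroup.mk g, ?_⟩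
    rw [hρ, hψ, hg]
  · intro q
    induction q using QuotientGroup.induction_on with
    | H g =>
      intro v hv hfx hco
      rw [hρ, hψ] at hfx
      obtain ⟨k, hk⟩ := hfix g v hv hfx
      have h1 : (QuotientGroup.mk g : G ⧸ P) ^ p ^ k = 1 := by
        rw [← QuotientGroup.mk_pow]
        exact (QuotientGroup.eq_one_iff _).2 hk
      have h2 : orderOf (QuotientGroup.mk g : G ⧸ P) ∣ p ^ k := orderOf_dvd_of_pow_eq_one h1
      have h3 : orderOf (QuotientGroup.mk g : G ⧸ P) = 1 :=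
        Nat.Coprime.eq_one_of_dvd (Nat.Coprime.pow_right k hco) h2
      exact orderOf_eq_one_iff.1 h3

/-- Multiplicative form of BRIDGE. -/
theorem bridge_aux2.{u, w} {G : Type w} [Group G] (p : ℕ) [Fact p.Prime]
    (A : Type u) [CommGroup A] [Finite A] [Nontrivial A] (hexp : ∀ a : A, a ^ p = 1)
    (φ : G →* MulAut A) (P : Subgroup G) [P.Normal] (hker : ∀ g : G, g ∈ P ↔ φ g = 1)
    (htr : ∀ x y : A, x ≠ 1 → y ≠ 1 → ∃ g : G, φ g x = y)
    (hfix : ∀ (g : G) (x : A), x ≠ 1 → φ g x = x → ∃ k : ℕ, g ^ p ^ k ∈ P) :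
    ∃ (V : Type u) (_ : AddCommGroup V) (_ : Module (ZMod p) V) (_ : Finite V) (_ : Nontrivial V)
      (ρ : (G ⧸ P) →* (V ≃ₗ[ZMod p] V)), LA p ρ := by
  let iM : Module (ZMod p) (Additive A) := AddCommGroup.zmodModule (n := p) (by
    intro x
    exact congrArg Additive.ofMul (hexp x.toMul))
  let φ' : G → (Additive A ≃+ Additive A) := fun g => MulEquiv.toAdditive (φ g)
  have hφ' : ∀ (g : G) (x : Additive A), φ' g x = Additive.ofMul (φ g x.toMul) := fun g x => rfl
  refine ⟨Additive A, inferInstance, iM, inferInstance, inferInstance, ?_⟩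
  refine bridge_aux p (Additive A) φ' ?_ ?_ P ?_ ?_ ?_
  · intro x
    rw [hφ', map_one]; rfl
  · intro a b x
    rw [hφ', hφ', hφ', map_mul]; rfl
  · intro g
    rw [hker]
    constructor
    · intro h x
      rw [hφ', h]; rfl
    · intro h
      refine MulEquiv.ext fun x => ?_
      exact congrArg Additive.toMul (h (Additive.ofMul x))
  · intro v w hv hw
    obtain ⟨g, hg⟩ := htr v.toMul w.toMul (fun h => hv (congrArg Additive.ofMul h))
      (fun h => hw (congrArg Additive.ofMul h))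
    refine ⟨g, ?_⟩
    rw [hφ', hg]; rfl
  · intro g v hv hfx
    exact hfix g v.toMul (fun h => hv (congrArg Additive.ofMul h)) (congrArg Additive.toMul hfx)

/-- BRIDGE -/
theorem bridge.{u} {G : Type u} [Group G] [Finite G] {p : ℕ} [Fact p.Prime] {N : Subgroup G}
    [N.Normal] (D : Cfsg.Agent.Lib.Helper71.Gag.Dat p N) (hexp : ∀ n ∈ N, n ^ p = 1)
    (hker : ∀ g : G, g ∈ Cfsg.pCore p G ↔ ∀ n ∈ N, g * n = n * g) :
    ∃ (V : Type u) (_ : AddCommGroup V) (_ : Module (ZMod p) V) (_ : Finite V) (_ : Nontrivial V)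
      (ρ : (G ⧸ Cfsg.pCore p G) →* (V ≃ₗ[ZMod p] V)), LA p ρ := by
  have hp : p.Prime := Fact.out
  let iC : CommGroup N :=
    { (inferInstance : Group N) with
      mul_comm := fun a b => Subtype.ext (Cfsg.Agent.Lib.Helper71.Gag.ab D a a.2 b b.2) }
  have hnt : Nontrivial N := (Subgroup.nontrivial_iff_ne_bot N).2 D.ne
  have hconj : ∀ (g : G) (x : N), ((MulAut.conjNormal g x : N) : G) = g * x * g⁻¹ :=
    fun g x => rfl
  refine bridge_aux2 p N (fun a => Subtype.ext (hexp a a.2)) (MulAut.conjNormal (H := N))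
    (Cfsg.pCore p G) ?_ ?_ ?_
  · intro g
    rw [hker]
    constructor
    · intro h
      refine MulEquiv.ext fun x => Subtype.ext ?_
      rw [hconj, h x x.2, mul_inv_cancel_right]; rfl
    · intro h n hn
      have := congrArg (fun f : MulAut N => ((f ⟨n, hn⟩ : N) : G)) h
      simp only [hconj] at this
      have h2 : g * n * g⁻¹ = n := this
      calc g * n = (g * n * g⁻¹) * g := by group
        _ = n * g := by rw [h2]
  · intro x y hx hy
    obtain ⟨c, hc⟩ := isConj_iff.1 (D.c1 x x.2 y y.2 (fun h => hx (Subtype.ext h))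
      (fun h => hy (Subtype.ext h)))
    exact ⟨c, Subtype.ext (by rw [hconj, hc])⟩
  · intro g x hx hfx
    have hfx' : g * x * g⁻¹ = x := by
      rw [← hconj, hfx]
    have hcomm : Commute g (x : G) := by
      have : g * x = x * g := by
        calc g * x = (g * x * g⁻¹) * g := by group
          _ = x * g := by rw [hfx']
      exact this
    obtain ⟨k, m, hm, hkm⟩ := Nat.exists_eq_pow_mul_and_not_dvd (orderOf_pos g).ne' p
      hp.one_lt.ne'
    refine ⟨k, ?_⟩
    have ho : orderOf (g ^ p ^ k) = m := by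
      rw [orderOf_pow_of_dvd (pow_ne_zero _ hp.pos.ne') (by rw [hkm]; exact Dvd.intro _ rfl), hkm,
        Nat.mul_div_cancel_left _ (pow_pos hp.pos _)]
    have h1 : g ^ p ^ k = 1 := by
      apply Cfsg.Agent.Lib.Helper71.Gag.fpf D x x.2 (fun h => hx (Subtype.ext h)) _ _ _
      · exact (hcomm.pow_left _).eq
      · rw [ho]
        exact ((Nat.Prime.coprime_iff_not_dvd hp).2 hm).symm
    rw [h1]
    exact one_mem _

end Cfsg.Agent.Lib.Helper9.GS
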