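import Cfsg.Agent.Lib.Helper71.GS.Defs
import Cfsg.Prelude.Def_CaseTheorems
import Cfsg.Agent.Lib.Helper71.Gag.Basic

set_option autoImplicit false

open Cfsg.Agent.Lib.Helper71.GS

namespace Cfsg.Agent.Lib.Helper9.GS

/-- CENT -/
theorem core_eq {G : Type*} [Group G] [Finite G] {p : ℕ} [Fact p.Prime] {N : Subgroup G}
    [N.Normal] (D : Cfsg.Agent.Lib.Helper71.Gag.Dat p N) :
    ∀ g : G, g ∈ Cfsg.pCore p G ↔ ∀ n ∈ N, g * n = n * g := by
  have hp : p.Prime := Fact.out
  obtain ⟨x, hx1⟩ := (Subgroup.ne_bot_iff_exists_ne_one).1 D.ne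
  have hx1' : (x : G) ≠ 1 := fun h => hx1 (Subtype.ext h)
  have hP : IsPGroup p (Subgroup.centralizer (N : Set G)) := by
    intro y
    obtain ⟨k, m, hm, hkm⟩ := Nat.exists_eq_pow_mul_and_not_dvd (orderOf_pos (y : G)).ne' p
      hp.one_lt.ne'
    refine ⟨k, ?_⟩
    have ho : orderOf ((y : G) ^ p ^ k) = m := by
      rw [orderOf_pow_of_dvd (pow_ne_zero _ hp.pos.ne') (by rw [hkm]; exact Dvd.intro _ rfl), hkm,
        Nat.mul_div_cancel_left _ (pow_pos hp.pos _)]
    have hy : (y : G) * x = x * y := ((Subgroup.mem_centralizer_iff.1 y.2) x x.2).symm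
    have h1 : (y : G) ^ p ^ k = 1 := by
      apply Cfsg.Agent.Lib.Helper71.Gag.fpf D x x.2 hx1' _ _ _
      · exact ((Commute.pow_left (show Commute (y : G) x from hy) _)).eq
      · rw [ho]
        exact ((Nat.Prime.coprime_iff_not_dvd hp).2 hm).symm
    ext
    simpa using h1
  have hle : Subgroup.centralizer (N : Set G) ≤ Cfsg.pCore p G :=
    le_sSup ⟨inferInstance, hP⟩
  have hOp : IsPGroup p (Cfsg.pCore p G) :=
    Sylow.sSup_of_normal _ (fun _ h => h.2) (fun _ h => h.1)
  -- a non trivial element of `N` centralised by the core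
  have hz : ∃ z : N, z ≠ 1 ∧ ∀ g ∈ Cfsg.pCore p G, g * (z : G) * g⁻¹ = z := by
    let act : MulAction (Cfsg.pCore p G) N :=
      MulAction.compHom N ((MulAut.conjNormal (H := N)).comp (Cfsg.pCore p G).subtype)
    have hsm : ∀ (o : Cfsg.pCore p G) (n : N), ((o • n : N) : G) = o * n * (o : G)⁻¹ :=
      fun o n => rfl
    have hdvd : p ∣ Nat.card N := by
      obtain ⟨k, hk⟩ := (IsPGroup.iff_card.1 D.pg)
      rw [hk]
      rcases Nat.eq_zero_or_pos k with rfl | hk0
      · exfalso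
        rw [pow_zero] at hk
        exact D.ne (Subgroup.card_eq_one.1 hk)
      · exact dvd_pow_self p hk0.ne'
    have h1 : (1 : N) ∈ MulAction.fixedPoints (Cfsg.pCore p G) N := by
      intro o
      apply Subtype.ext
      rw [hsm]
      simp
    obtain ⟨z, hz, hz1⟩ := hOp.exists_fixed_point_of_prime_dvd_card_of_fixed_point N hdvd h1
    refine ⟨z, hz1.symm, fun g hg => ?_⟩
    have := congrArg (fun n : N => (n : G)) (hz ⟨g, hg⟩)
    simpa [hsm] using this
  obtain ⟨z, hz1, hz⟩ := hz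
  intro g
  constructor
  · intro hg n hn
    by_cases hn1 : n = 1
    · rw [hn1, mul_one, one_mul]
    obtain ⟨c, hc⟩ := isConj_iff.1 (D.c1 z z.2 n hn (fun h => hz1 (Subtype.ext h)) hn1)
    have h1 : c⁻¹ * g * c ∈ Cfsg.pCore p G := by
      have := (inferInstance : (Cfsg.pCore p G).Normal).conj_mem g hg c⁻¹
      rwa [inv_inv] at this
    have h2 := hz _ h1
    have h3 : g * n * g⁻¹ = n := by
      rw [← hc]
      calc g * (c * (z : G) * c⁻¹) * g⁻¹
          = c * ((c⁻¹ * g * c) * (z : G) * (c⁻¹ * g * c)⁻¹) * c⁻¹ := by group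
        _ = c * (z : G) * c⁻¹ := by rw [h2]
    calc g * n = (g * n * g⁻¹) * g := by group
      _ = n * g := by rw [h3]
  · intro h
    apply hle
    rw [Subgroup.mem_centralizer_iff]
    intro n hn
    exact (h n hn).symm

end Cfsg.Agent.Lib.Helper9.GS
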