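import Cfsg.Agent.Lib.Helper71.GS.Defs
import Cfsg.Prelude.Def_CaseTheorems

set_option autoImplicit false

open Cfsg.Agent.Lib.Helper71.GS

namespace Cfsg.Agent.Lib.Helper9.GS

/-- GEN81 -/
theorem gen81 {X : Type*} [Group X] [Finite X] {V : Type*}
    [AddCommGroup V] [Module (ZMod 3) V] [Finite V]
    {ρ : X →* (V ≃ₗ[ZMod 3] V)} (L : LA 3 ρ) (hV : Nat.card V = 81) (y : X) (hy : orderOf y = 5)
    (v : V) (hv : v ≠ 0) :
    AddSubgroup.closure (Set.range fun n : ℕ => (⇑(ρ y))^[n] v) = ⊤ := by
  classical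
  set W : AddSubgroup V := AddSubgroup.closure (Set.range fun n : ℕ => (⇑(ρ y))^[n] v) with hW
  have hinv : ∀ w ∈ W, ρ y w ∈ W := by
    intro w hw
    induction hw using AddSubgroup.closure_induction with
    | mem x hx =>
      obtain ⟨n, rfl⟩ := hx
      apply AddSubgroup.subset_closure
      exact ⟨n + 1, Function.iterate_succ_apply' _ _ _⟩
    | zero => rw [map_zero]; exact W.zero_mem
    | add a b _ _ ha hb => rw [map_add]; exact W.add_mem ha hb
    | neg a _ ha => rw [map_neg]; exact W.neg_mem ha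
  have hvW : v ∈ W := AddSubgroup.subset_closure ⟨0, rfl⟩
  let f : Function.End W := fun w => ⟨ρ y w, hinv w w.2⟩
  have hf : ∀ (n : ℕ) (w : W), (((f ^ n : Function.End W) w : W) : V) = ρ (y ^ n) w := by
    intro n
    induction n with
    | zero => intro w; rw [pow_zero, pow_zero, map_one]; rfl
    | succ n ih =>
      intro w
      rw [pow_succ', pow_succ', map_mul, LinearEquiv.mul_apply, ← ih]
      rfl
  have hf5 : f ^ 5 ^ 1 = 1 := by
    funext w
    apply Subtype.ext
    rw [pow_one, hf, ← hy, pow_orderOf_eq_one, map_one]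
    rfl
  have : Fact (Nat.Prime 5) := ⟨by norm_num⟩
  let iF : Fintype W := Fintype.ofFinite W
  have hmod := Equiv.Perm.card_fixedPoints_modEq hf5
  have hfix : Fintype.card (Function.fixedPoints f) = 1 := by
    rw [Fintype.card_eq_one_iff]
    refine ⟨⟨0, ?_⟩, ?_⟩
    · apply Subtype.ext
      change ρ y (0 : V) = 0
      rw [map_zero]
    · rintro ⟨w, hw⟩
      apply Subtype.ext
      by_contra hw0
      have h1 : ρ y (w : V) = w := congrArg Subtype.val hw
      have h2 : (w : V) ≠ 0 := fun h => hw0 (Subtype.ext h)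
      have h3 := L.fix y w h2 h1 (by rw [hy]; norm_num)
      rw [h3, orderOf_one] at hy
      norm_num at hy
  rw [hfix, ← Nat.card_eq_fintype_card] at hmod
  have hdvd : Nat.card W ∣ 3 ^ 4 := by
    have := AddSubgroup.card_addSubgroup_dvd_card W
    rw [hV] at this
    exact this
  obtain ⟨m, hm, hm'⟩ := (Nat.dvd_prime_pow Nat.prime_three).1 hdvd
  have hne1 : Nat.card W ≠ 1 := by
    intro h
    have := AddSubgroup.card_eq_one.1 h
    rw [this] at hvW
    exact hv (AddSubgroup.mem_bot.1 hvW)
  apply AddSubgroup.eq_top_of_card_eq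
  rw [hV]
  rw [hm'] at hmod hne1 ⊢
  interval_cases m
  · exact absurd rfl hne1
  · exact absurd hmod (by decide)
  · exact absurd hmod (by decide)
  · exact absurd hmod (by decide)
  · rfl

end Cfsg.Agent.Lib.Helper9.GS
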