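import Cfsg.Agent.Lib.Helper71.GS.Defs
import Cfsg.Prelude.Def_CaseTheorems

set_option autoImplicit false

open Cfsg.Agent.Lib.Helper71.GS

namespace Cfsg.Agent.Lib.Helper9.GS

/-- Ring automorphisms of a finite field commute. -/
theorem semi_aut_comm {F : Type*} [Field F] [Finite F] (σ τ : F ≃+* F) (x : F) :
    σ (τ x) = τ (σ x) := by
  obtain ⟨ζ, hζ⟩ := IsCyclic.exists_generator (α := Fˣ)
  obtain ⟨k, hk⟩ := Subgroup.mem_zpowers_iff.1 (hζ (Units.map (σ : F →* F) ζ))
  have hk' : σ (ζ : F) = (ζ : F) ^ k := by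
    have := congrArg (fun u : Fˣ => (u : F)) hk
    simp only [Units.val_zpow_eq_zpow_val, Units.coe_map] at this
    exact this.symm
  have key : ∀ y : F, y ≠ 0 → σ y = y ^ k := by
    intro y hy
    obtain ⟨j, hj⟩ := Subgroup.mem_zpowers_iff.1 (hζ (Units.mk0 y hy))
    have hj' : y = (ζ : F) ^ j := by
      have := congrArg (fun u : Fˣ => (u : F)) hj
      simp only [Units.val_zpow_eq_zpow_val, Units.val_mk0] at this
      exact this.symm
    rw [hj', map_zpow₀, hk', ← zpow_mul, ← zpow_mul, mul_comm]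
  by_cases hx : x = 0
  · simp [hx]
  · have hτ : τ x ≠ 0 := by simpa using hx
    rw [key _ hτ, key _ hx, map_zpow₀]

/-- SEMI -/
theorem semilin {p : ℕ} [Fact p.Prime] {X : Type*} [Group X] [Finite X] {V : Type*}
    [AddCommGroup V] [Module (ZMod p) V] [Finite V] [Nontrivial V]
    (ρ : X →* (V ≃ₗ[ZMod p] V)) (hρ : Function.Injective ρ)
    (F : Type) [Field F] [Fintype F] (e : V ≃+ F)
    (h : ∀ g : X, ∃ (a : F) (σ : F ≃+* F), ∀ v : V, e (ρ g v) = a * σ (e v)) :
    ∃ K : Subgroup X, K.Normal ∧ (Nat.card K).Coprime p ∧ ∀ a b : X, a * b * a⁻¹ * b⁻¹ ∈ K := by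
  have hp : p.Prime := Fact.out
  -- characteristic
  have hchar : CharP F p := by
    rw [CharP.charP_iff_prime_eq_zero hp]
    have h1 : (p : ℕ) • (e.symm 1) = 0 := by
      have : ((p : ℕ) : ZMod p) • (e.symm 1) = 0 := by rw [ZMod.natCast_self, zero_smul]
      rwa [Nat.cast_smul_eq_nsmul] at this
    have h2 := congrArg e h1
    rw [map_nsmul, map_zero, AddEquiv.apply_symm_apply, nsmul_eq_mul, mul_one] at h2
    exact h2
  have hmul : ∀ (g k : X) (v : V), ρ (g * k) v = ρ g (ρ k v) := by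
    intro g k v
    rw [map_mul, LinearEquiv.mul_apply]
  have hinv : ∀ (g : X) (v : V), ρ g (ρ g⁻¹ v) = v := by
    intro g v
    rw [← hmul, mul_inv_cancel, map_one]; rfl
  have hinv' : ∀ (g : X) (v : V), ρ g⁻¹ (ρ g v) = v := by
    intro g v
    rw [← hmul, inv_mul_cancel, map_one]; rfl
  -- scalars are non zero
  have hne : ∀ (g : X) (a : F) (σ : F ≃+* F), (∀ v : V, e (ρ g v) = a * σ (e v)) → a ≠ 0 := by
    intro g a σ hg ha
    have h1 := hg (ρ g⁻¹ (e.symm 1))
    rw [hinv, AddEquiv.apply_symm_apply, ha, zero_mul] at h1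
    exact one_ne_zero h1
  -- the inverse
  have hinvform : ∀ (g : X) (a : F) (σ : F ≃+* F), (∀ v : V, e (ρ g v) = a * σ (e v)) →
      ∀ v : V, e (ρ g⁻¹ v) = σ.symm a⁻¹ * σ.symm (e v) := by
    intro g a σ hg v
    have ha := hne g a σ hg
    have h1 := hg (ρ g⁻¹ v)
    rw [hinv] at h1
    rw [← map_mul, h1, ← mul_assoc, inv_mul_cancel₀ ha, one_mul, RingEquiv.symm_apply_apply]
  let K : Subgroup X :=
    { carrier := {g | ∃ a : F, ∀ v : V, e (ρ g v) = a * e v}
      one_mem' := ⟨1, fun v => by rw [map_one, one_mul]; rfl⟩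
      mul_mem' := by
        rintro g k ⟨a, ha⟩ ⟨b, hb⟩
        exact ⟨a * b, fun v => by rw [hmul, ha, hb, mul_assoc]⟩
      inv_mem' := by
        rintro g ⟨a, ha⟩
        have := hinvform g a (RingEquiv.refl F) (fun v => by simpa using ha v)
        exact ⟨a⁻¹, fun v => by simpa using this v⟩ }
  have hK : ∀ g : X, g ∈ K ↔ ∃ a : F, ∀ v : V, e (ρ g v) = a * e v := fun g => Iff.rfl
  refine ⟨K, ⟨?_⟩, ?_, ?_⟩
  · intro g hg x
    obtain ⟨a, ha⟩ := (hK g).1 hg
    obtain ⟨b, σ, hx⟩ := h x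
    rw [hK]
    refine ⟨σ a, fun v => ?_⟩
    rw [hmul, hmul, hx, ha, map_mul]
    have h1 := hx (ρ x⁻¹ v)
    rw [hinv] at h1
    rw [h1]; ring
  · rw [Nat.coprime_comm, Nat.Prime.coprime_iff_not_dvd hp]
    intro hdvd
    obtain ⟨g, hg⟩ := exists_prime_orderOf_dvd_card' p hdvd
    obtain ⟨a, ha⟩ := (hK g).1 g.2
    have hpow : ∀ (n : ℕ) (v : V), e (ρ ((g : X) ^ n) v) = a ^ n * e v := by
      intro n
      induction n with
      | zero => intro v; rw [pow_zero, pow_zero, map_one, one_mul]; rfl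
      | succ n ih => intro v; rw [pow_succ, hmul, ih, ha, pow_succ, mul_assoc]
    have hgp : (g : X) ^ p = 1 := by
      have := pow_orderOf_eq_one g
      rw [hg] at this
      have := congrArg (fun u : K => (u : X)) this
      simpa using this
    have hap : a ^ p = 1 := by
      have h1 := hpow p (e.symm 1)
      rw [hgp, map_one, AddEquiv.apply_symm_apply, mul_one] at h1
      rw [← h1]
      exact e.apply_symm_apply 1
    have ha1 : a = 1 := by
      have h1 : (a - 1) ^ p = 0 := by rw [sub_pow_char, hap, one_pow, sub_self]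
      exact sub_eq_zero.1 (pow_eq_zero_iff hp.pos.ne' |>.1 h1)
    have hg1 : (g : X) = 1 := by
      apply hρ
      rw [map_one]
      ext v
      apply e.injective
      rw [ha, ha1, one_mul]; rfl
    have : g = 1 := Subtype.ext hg1
    rw [this, orderOf_one] at hg
    exact hp.one_lt.ne hg
  · intro x y
    obtain ⟨a, σ, hx⟩ := h x
    obtain ⟨b, τ, hy⟩ := h y
    have hx' := hinvform x a σ hx
    have hy' := hinvform y b τ hy
    rw [hK]
    refine ⟨a * σ b * σ (τ (σ.symm a⁻¹)) * σ (τ (σ.symm (τ.symm b⁻¹))), fun v => ?_⟩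
    rw [hmul, hmul, hmul, hx, hy, hx', hy']
    simp only [map_mul]
    have h1 : σ (τ (σ.symm (τ.symm (e v)))) = e v := by
      rw [semi_aut_comm σ τ, RingEquiv.apply_symm_apply, RingEquiv.apply_symm_apply]
    rw [h1]; ring

end Cfsg.Agent.Lib.Helper9.GS
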