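import Cfsg.Agent.Lib.Helper71.GS.Defs
import Cfsg.Prelude.Def_CaseTheorems

set_option autoImplicit false

open Cfsg.Agent.Lib.Helper71.GS

namespace Cfsg.Agent.Lib.Helper9.GS

/-- STAB1 -/
theorem card_stab {p : ℕ} [Fact p.Prime] {X : Type*} [Group X] [Finite X] {V : Type*}
    [AddCommGroup V] [Module (ZMod p) V] [Finite V]
    {ρ : X →* (V ≃ₗ[ZMod p] V)} (L : LA p ρ) (v : V) (hv : v ≠ 0) :
    Nat.card X = (Nat.card V - 1) * Nat.card (stab ρ v) := by
  classical
  -- the orbit map `X ⧸ stab → V \ {0}` is a bijection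
  have hmul : ∀ (g k : X) (u : V), ρ (g * k) u = ρ g (ρ k u) := by
    intro g k u
    rw [map_mul, LinearEquiv.mul_apply]
  let f : X ⧸ stab ρ v → {u : V // u ≠ 0} :=
    Quotient.lift (s := QuotientGroup.leftRel (stab ρ v))
      (fun g : X => (⟨ρ g v, fun h => hv ((LinearEquiv.map_eq_zero_iff _).1 h)⟩ : {u : V // u ≠ 0}))
      (by
        intro a b hab
        have h1 : a⁻¹ * b ∈ stab ρ v := QuotientGroup.leftRel_apply.1 hab
        have h2 : ρ (a⁻¹ * b) v = v := h1
        apply Subtype.ext
        change ρ a v = ρ b v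
        have : ρ b v = ρ a (ρ (a⁻¹ * b) v) := by
          rw [← hmul, mul_inv_cancel_left]
        rw [this, h2])
  have hf : ∀ g : X, (f (QuotientGroup.mk g) : V) = ρ g v := fun g => rfl
  have hbij : Function.Bijective f := by
    constructor
    · intro a b
      induction a using QuotientGroup.induction_on with
      | H a =>
        induction b using QuotientGroup.induction_on with
        | H b =>
          intro hab
          have h1 : ρ a v = ρ b v := by rw [← hf, ← hf, hab]
          apply QuotientGroup.eq.2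
          change ρ (a⁻¹ * b) v = v
          rw [hmul, ← h1, ← hmul, inv_mul_cancel, map_one]
          rfl
    · rintro ⟨u, hu⟩
      obtain ⟨g, hg⟩ := L.trans v u hv hu
      exact ⟨QuotientGroup.mk g, Subtype.ext hg⟩
  have h1 : Nat.card (X ⧸ stab ρ v) = Nat.card V - 1 := by
    rw [Nat.card_congr (Equiv.ofBijective f hbij)]
    let iF : Fintype V := Fintype.ofFinite V
    rw [Nat.card_eq_fintype_card, Nat.card_eq_fintype_card, Fintype.card_subtype_compl,
      Fintype.card_subtype_eq]
  rw [← h1, mul_comm]
  exact Subgroup.card_eq_card_quotient_mul_card_subgroup (stab ρ v) |>.trans (mul_comm _ _)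

end Cfsg.Agent.Lib.Helper9.GS
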