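import Cfsg.Agent.Lib.Helper71.GS.Defs
import Cfsg.Prelude.Def_CaseTheorems

set_option autoImplicit false

open Cfsg.Agent.Lib.Helper71.GS

namespace Cfsg.Agent.Lib.Helper9.GS

/-- STAB9 -/
theorem stab9 {X : Type*} [Group X] [Finite X] {V : Type*}
    [AddCommGroup V] [Module (ZMod 3) V] [Finite V]
    {ρ : X →* (V ≃ₗ[ZMod 3] V)} (L : LA 3 ρ) (hV : Nat.card V = 9) (v : V) (hv : v ≠ 0) :
    Nat.card (stab ρ v) ∣ 3 := by
  classical
  have hp : Nat.Prime 3 := Nat.prime_three
  -- the stabiliser is a 3-group
  have hP : IsPGroup 3 (stab ρ v) := by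
    intro g
    obtain ⟨k, m, hm, hkm⟩ := Nat.exists_eq_pow_mul_and_not_dvd (orderOf_pos (g : X)).ne' 3
      (by norm_num)
    refine ⟨k, ?_⟩
    have ho : orderOf ((g : X) ^ 3 ^ k) = m := by
      rw [orderOf_pow_of_dvd (pow_ne_zero _ hp.pos.ne') (by rw [hkm]; exact Dvd.intro _ rfl), hkm,
        Nat.mul_div_cancel_left _ (pow_pos hp.pos _)]
    have hmem : (g : X) ^ 3 ^ k ∈ stab ρ v := (stab ρ v).pow_mem g.2 _
    have h1 : (g : X) ^ 3 ^ k = 1 := by
      apply L.fix _ v hv hmem
      rw [ho]
      exact ((Nat.Prime.coprime_iff_not_dvd hp).2 hm).symm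
    ext
    simpa using h1
  obtain ⟨j, hj⟩ := IsPGroup.iff_card.1 hP
  -- the line through `v`
  have h3v : 3 • v = 0 := by
    have : ((3 : ℕ) : ZMod 3) • v = 0 := by rw [ZMod.natCast_self, zero_smul]
    rwa [Nat.cast_smul_eq_nsmul] at this
  have hU : Nat.card (AddSubgroup.zmultiples v) = 3 := by
    rw [Nat.card_zmultiples]
    exact addOrderOf_eq_prime h3v hv
  have hw : ∃ w : V, w ∉ AddSubgroup.zmultiples v := by
    by_contra hcon
    push Not at hcon
    have : AddSubgroup.zmultiples v = ⊤ := (AddSubgroup.eq_top_iff' _).2 hcon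
    rw [this, AddSubgroup.card_top, hV] at hU
    norm_num at hU
  obtain ⟨w, hw⟩ := hw
  have hw0 : w ≠ 0 := fun h => hw (h ▸ zero_mem _)
  -- an element fixing `v` and `w` is trivial
  have key : ∀ g : X, ρ g v = v → ρ g w = w → g = 1 := by
    intro g hgv hgw
    let Fg : AddSubgroup V :=
      { carrier := {u | ρ g u = u}
        zero_mem' := map_zero _
        add_mem' := by
          intro a b ha hb
          change ρ g (a + b) = a + b
          rw [map_add, ha, hb]
        neg_mem' := by
          intro a ha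
          change ρ g (-a) = -a
          rw [map_neg, ha] }
    have hle : AddSubgroup.zmultiples v ≤ Fg := by
      rw [AddSubgroup.zmultiples_le]
      exact hgv
    have hdvd : Nat.card Fg ∣ 3 ^ 2 := by
      have := AddSubgroup.card_addSubgroup_dvd_card Fg
      rw [hV] at this
      exact this
    obtain ⟨m, hm, hm'⟩ := (Nat.dvd_prime_pow hp).1 hdvd
    have hgt : 3 < Nat.card Fg := by
      by_contra hcon
      push Not at hcon
      have := AddSubgroup.eq_of_le_of_card_ge hle (by rw [hU]; exact hcon)
      apply hw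
      rw [this]
      exact hgw
    have hFg : Fg = ⊤ := by
      apply AddSubgroup.eq_top_of_card_eq
      rw [hV]
      rw [hm'] at hgt ⊢
      interval_cases m
      · norm_num at hgt
      · norm_num at hgt
      · rfl
    apply L.inj
    rw [map_one]
    refine LinearEquiv.ext fun u => ?_
    have : u ∈ Fg := by rw [hFg]; trivial
    exact this
  -- the orbit map of `w`
  let iF1 : Fintype (stab ρ v) := Fintype.ofFinite _
  let iF2 : Fintype V := Fintype.ofFinite _
  have hlt : Fintype.card (stab ρ v) < Fintype.card V := by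
    refine Fintype.card_lt_of_injective_of_notMem (fun g : stab ρ v => ρ (g : X) w) ?_ (b := 0) ?_
    · intro a b hab
      have hab' : ρ (a : X) w = ρ (b : X) w := hab
      have h1 : ((b : X)⁻¹ * a) = 1 := by
        apply key
        · exact ((stab ρ v).mul_mem ((stab ρ v).inv_mem b.2) a.2)
        · rw [map_mul, LinearEquiv.mul_apply, hab', ← LinearEquiv.mul_apply, ← map_mul,
            inv_mul_cancel, map_one]
          rfl
      apply Subtype.ext
      exact (inv_mul_eq_one.1 h1).symm
    · rintro ⟨g, hg⟩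
      have hg' : ρ (g : X) w = 0 := hg
      exact hw0 ((LinearEquiv.map_eq_zero_iff _).1 hg')
  rw [← Nat.card_eq_fintype_card, ← Nat.card_eq_fintype_card, hV, hj] at hlt
  rw [hj]
  have hj1 : j < 2 := by
    by_contra hcon
    push Not at hcon
    have : 3 ^ 2 ≤ 3 ^ j := Nat.pow_le_pow_right (by norm_num) hcon
    omega
  interval_cases j
  · norm_num
  · norm_num

end Cfsg.Agent.Lib.Helper9.GS
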