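import Mathlib
import Cfsg.Agent.Lib.Helper7.SL2Center

set_option autoImplicit false

/-!
Groups with abelian Sylow 2-subgroups contain no dihedral group of order eight; `PSL(2,q)` contains
one when `q ≡ ±1 (mod 8)`.
-/

namespace Cfsg.Agent.Lib.Helper9.JR

open Matrix Subgroup

theorem isPGroup_zpowers_two {G : Type*} [Group G] (g : G) (k : ℕ) (h : g ^ 2 ^ k = 1) :
    IsPGroup 2 (zpowers g) := by
  rintro ⟨x, hx⟩
  obtain ⟨m, rfl⟩ := Subgroup.mem_zpowers_iff.1 hx
  refine ⟨k, ?_⟩
  ext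
  simp only [Subgroup.coe_pow, Subgroup.coe_one]
  rw [← zpow_natCast, ← _root_.zpow_mul, mul_comm, _root_.zpow_mul, zpow_natCast, h, _root_.one_zpow]

theorem sq_eq_one_of_inverted {G : Type*} [Group G] [Finite G]
    (hab : ∀ S : Sylow 2 G, IsMulCommutative ↥(S : Subgroup G))
    (c i : G) (hc : c ^ 4 = 1) (hi : i ^ 2 = 1) (hic : i * c * i⁻¹ = c⁻¹) : c ^ 2 = 1 := by
  have : Fact (Nat.Prime 2) := ⟨Nat.prime_two⟩
  have h1 : IsPGroup 2 (zpowers c) := isPGroup_zpowers_two c 2 (by simpa using hc)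
  have h2 : IsPGroup 2 (zpowers i) := isPGroup_zpowers_two i 1 (by simpa using hi)
  have key : ∀ h, h ∈ zpowers c → i * h * i⁻¹ ∈ zpowers c := by
    intro h hh
    obtain ⟨m, rfl⟩ := mem_zpowers_iff.1 hh
    have : i * c ^ m * i⁻¹ = (c⁻¹) ^ m := by rw [← hic, conj_zpow]
    rw [this]
    exact zpow_mem (inv_mem (mem_zpowers c)) m
  have hii : i * i = 1 := by rw [← pow_two]; exact hi
  have hinv : i⁻¹ = i := inv_eq_of_mul_eq_one_left hii
  have h3 : zpowers i ≤ Subgroup.normalizer (zpowers c : Set G) := by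
    rw [zpowers_le, mem_normalizer_iff]
    intro h
    refine ⟨key h, fun hh => ?_⟩
    have := key _ hh
    have e : i * (i * h * i⁻¹) * i⁻¹ = h := by
      rw [hinv]
      calc i * (i * h * i) * i = (i * i) * h * (i * i) := by group
        _ = h := by rw [hii]; simp
    rwa [e] at this
  have h4 := IsPGroup.to_sup_of_normal_right' h2 h1 h3
  obtain ⟨S, hS⟩ := h4.exists_le_sylow
  have hcS : c ∈ (S : Subgroup G) := hS (mem_sup_right (mem_zpowers c))
  have hiS : i ∈ (S : Subgroup G) := hS (mem_sup_left (mem_zpowers i))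
  have hcomm : i * c = c * i := congrArg Subtype.val ((hab S).is_comm.comm ⟨i, hiS⟩ ⟨c, hcS⟩)
  rw [hcomm, mul_inv_cancel_right] at hic
  rw [pow_two]
  nth_rewrite 1 [hic]
  exact inv_mul_cancel c

variable {F : Type*} [Field F] [Fintype F]

theorem exists_sq_add_sq (hodd : Fintype.card F % 2 = 1) : ∃ x y : F, x ^ 2 + y ^ 2 = -1 := by
  classical
  obtain ⟨a, b, hab⟩ : ∃ a b, (Polynomial.X ^ 2 : Polynomial F).eval a +
      (Polynomial.X ^ 2 - Polynomial.C (-1) : Polynomial F).eval b = 0 :=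
    FiniteField.exists_root_sum_quadratic (Polynomial.degree_X_pow 2)
      (Polynomial.degree_X_pow_sub_C (by decide) _) hodd
  refine ⟨a, b, ?_⟩
  simp only [Polynomial.eval_pow, Polynomial.eval_X, Polynomial.eval_sub, Polynomial.eval_C] at hab
  linear_combination hab

theorem exists_d8 (h : Fintype.card F % 8 = 1 ∨ Fintype.card F % 8 = 7) :
    ∃ c i : ProjectiveSpecialLinearGroup (Fin 2) F,
      c ^ 4 = 1 ∧ i ^ 2 = 1 ∧ i * c * i⁻¹ = c⁻¹ ∧ c ^ 2 ≠ 1 := by
  classical
  have hodd : Fintype.card F % 2 = 1 := by omega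
  have h2 : (2 : F) ≠ 0 := by
    intro h0
    have hc : ringChar F = 2 := by
      have : ringChar F ∣ 2 := by
        rw [← ringChar.spec]; exact_mod_cast h0
      rcases (Nat.dvd_prime Nat.prime_two).1 this with h1 | h1
      · exact absurd h1 (CharP.ringChar_ne_one)
      · exact h1
    have := FiniteField.even_card_of_char_two hc
    omega
  obtain ⟨τ, hτ⟩ : IsSquare (2 : F) := FiniteField.isSquare_two_iff.2 (by omega)
  have hτ0 : τ ≠ 0 := by
    rintro rfl
    simp at hτ
    exact h2 hτ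
  obtain ⟨s, hs⟩ : ∃ s : F, 2 * s ^ 2 = 1 := ⟨τ⁻¹, by
    rw [hτ]; field_simp⟩
  obtain ⟨x, y, hxy⟩ := exists_sq_add_sq (F := F) hodd
  let C : SpecialLinearGroup (Fin 2) F := ⟨!![s, s; -s, s], by
    rw [det_fin_two_of]; linear_combination hs⟩
  let I : SpecialLinearGroup (Fin 2) F := ⟨!![x, y; y, -x], by
    rw [det_fin_two_of]; linear_combination -hxy⟩
  have hC : C.1 = !![s, s; -s, s] := rfl
  have hI : I.1 = !![x, y; y, -x] := rfl
  have hCC : (C * C).1 = !![0, 1; -1, 0] := by
    have e : (C * C).1 = C.1 * C.1 := rfl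
    rw [e, hC, mul_fin_two]
    ext a b
    fin_cases a <;> fin_cases b
    · simp
    · simp; linear_combination hs
    · simp; linear_combination -hs
    · simp
  have hII : (I * I).1 = !![-1, 0; 0, -1] := by
    have e : (I * I).1 = I.1 * I.1 := rfl
    rw [e, hI, mul_fin_two]
    ext a b
    fin_cases a <;> fin_cases b
    · simp; linear_combination hxy
    · simp; ring
    · simp; ring
    · simp; linear_combination hxy
  have hCIC : C * I * C = I := by
    apply Subtype.ext
    have e : (C * I * C).1 = C.1 * I.1 * C.1 := rfl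
    rw [e, hC, hI, mul_fin_two, mul_fin_two]
    ext a b
    fin_cases a <;> fin_cases b
    · simp; linear_combination x * hs
    · simp; linear_combination y * hs
    · simp; linear_combination y * hs
    · simp; linear_combination -x * hs
  have hC4 : (C * C * (C * C)).1 = !![-1, 0; 0, -1] := by
    have e : (C * C * (C * C)).1 = (C * C).1 * (C * C).1 := rfl
    rw [e, hCC, mul_fin_two]
    ext a b
    fin_cases a <;> fin_cases b <;> simp
  let π := QuotientGroup.mk' (Subgroup.center (SpecialLinearGroup (Fin 2) F))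
  refine ⟨π C, π I, ?_, ?_, ?_, ?_⟩
  · rw [← map_pow]
    refine (QuotientGroup.eq_one_iff _).2 ?_
    have e : C ^ 4 = C * C * (C * C) := by
      rw [show (4 : ℕ) = 2 + 2 from rfl, pow_add, pow_two]
    rw [e, Cfsg.Agent.Lib.Helper7.mem_center_SL2_iff, hC4]
    simp
  · rw [← map_pow]
    refine (QuotientGroup.eq_one_iff _).2 ?_
    rw [pow_two, Cfsg.Agent.Lib.Helper7.mem_center_SL2_iff, hII]
    simp
  · rw [← map_mul, ← map_inv, ← map_inv, ← map_mul]
    congr 1
    calc I * C * I⁻¹ = C⁻¹ * (C * I * C) * I⁻¹ := by group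
      _ = C⁻¹ := by rw [hCIC]; group
  · rw [← map_pow]
    intro h0
    have h1 := (QuotientGroup.eq_one_iff _).1 h0
    rw [pow_two, Cfsg.Agent.Lib.Helper7.mem_center_SL2_iff, hCC] at h1
    simp at h1

end Cfsg.Agent.Lib.Helper9.JR
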