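import Cfsg.Agent.Lib.Helper9.SchurVT2

set_option autoImplicit false

/-!
The prime two for groups with an elementary abelian Sylow 2-subgroup of order eight.
-/

namespace Cfsg.Agent.Lib.Helper9

open Cfsg Subgroup
open scoped commutatorElement

variable {Γ : Type*} {G : Type*} [Group Γ] [Group G]

theorem EA3_main [Finite Γ] (σ : Γ →* G) (hσ : IsStemExtension σ)
    (h2 : ∀ z, σ z = 1 → z * z = 1) (u v w : G) (hu : LS u) (hv : LS v) (hw : LS w)
    (huv : LS (u * v)) (huw : LS (u * w)) (hvw : LS (v * w)) (m : ℕ) (hm : Odd m)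
    (hidx : (closure ({u, v, w} : Set G)).index = m) : ∀ z, σ z = 1 → z = 1 := by
  have hE : Exp2 σ := ⟨hσ.1, hσ.2.1, h2⟩
  obtain ⟨α, hα⟩ := hσ.1 u
  obtain ⟨β, hβ⟩ := hσ.1 v
  obtain ⟨γ, hγ⟩ := hσ.1 w
  have c1 : α * β = β * α :=
    Exp2.commute_lifts (hE.sound hu) (hE.sound hv) (hE.sound huv) hα hβ
  have c2 : α * γ = γ * α :=
    Exp2.commute_lifts (hE.sound hu) (hE.sound hw) (hE.sound huw) hα hγ
  have c3 : β * γ = γ * β :=
    Exp2.commute_lifts (hE.sound hv) (hE.sound hw) (hE.sound hvw) hβ hγ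
  have hcomm : ∀ x ∈ ({α, β, γ} : Set Γ), ∀ y ∈ ({α, β, γ} : Set Γ), x * y = y * x := by
    intro x hx y hy
    simp only [Set.mem_insert_iff, Set.mem_singleton_iff] at hx hy
    rcases hx with rfl | rfl | rfl <;> rcases hy with rfl | rfl | rfl <;>
      first | rfl | assumption | (symm; assumption)
  intro z hz
  have h3 := pow_index_eq_one σ hσ ({α, β, γ} : Set Γ) ⊥ (by
    intro x _ d hd
    rw [mem_bot] at hd
    subst hd
    simp) (by
    intro x hx y hy
    rw [mem_bot, commutatorElement_eq_one_iff_mul_comm]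
    exact hcomm x hx y hy) (by
    intro d hd _
    exact mem_bot.1 hd) z hz
  have h4 : σ '' ({α, β, γ} : Set Γ) = {u, v, w} := by
    rw [Set.image_insert_eq, Set.image_pair, hα, hβ, hγ]
  rw [h4, hidx] at h3
  exact eq_one_of_odd_pow (h2 z hz) hm h3

end Cfsg.Agent.Lib.Helper9
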